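import Cfsg.Agent.H559.Sd.Fi22
import Cfsg.Agent.R08.FiTwentyThree

/-!
# S4579: `Elem` for `Fi23` (helper559, market task 3296)

The centralizer of a transposition is a perfect double cover of `Fi22`, of index 31671.
-/

set_option autoImplicit false

namespace Cfsg.Agent.H559.Sd

open Cfsg Subgroup Cfsg.Agent.H643.Sd

universe u

namespace Fi23

open Cfsg.Agent.R01 Cfsg.Agent.R08.FiTwentyThree

theorem elem : Elem Spor.Fi23 := by
  have := finite_fi23
  have hK : Elem Cfsg.Agent.Fischer.Fi23Class.K := elem_of_ext ext perfect Fi22.elem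
  refine elem_of_odd_index _ ?_ hK
  have h1 : Cfsg.Agent.Fischer.Fi23Class.K.index = 31671 := AlphaFi23.index_K
  rw [h1]
  decide

end Fi23

theorem elem_fi23 {G : Type u} [Group G] [Finite G] (h : Spor.IsoFi23 G) : Elem G := by
  have := Cfsg.Agent.R08.FiTwentyThree.finite_fi23
  obtain ⟨e⟩ := h
  exact Elem.congr Fi23.elem e.symm

end Cfsg.Agent.H559.Sd
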